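import Mathlib
import Cfsg.Agent.Lib.Helper73.UP.Defs

set_option autoImplicit false

/-! Project UP (S3575), package MODEL: all the models needed, from sums, the shift model,
the one-block model and the empty model. -/

namespace Cfsg.Agent.Lib.Helper65.UP

open Cfsg.Agent.Lib.Helper73.UP

/-- `m` fixed blocks carrying `c ≤ m * (a / r)` cycles -/
theorem model_fixed_blocks (hS : LemModelSum) (hO : LemModelOne) (hZ : LemModelZero)
    (r a : ℕ) (hr : r.Prime) :
    ∀ m c : ℕ, c ≤ m * (a / r) → Model r a m c := by
  intro m
  induction m with
  | zero =>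
    intro c hc
    have hc0 : c = 0 := by simpa using hc
    subst hc0
    exact hZ r a
  | succ m ih =>
    intro c hc
    have h1 : Model r a 1 (min c (a / r)) := by
      apply hO r a _ hr
      calc min c (a / r) * r ≤ (a / r) * r := Nat.mul_le_mul_right _ (min_le_right _ _)
        _ ≤ a := Nat.div_mul_le_self a r
    have h2 : Model r a m (c - min c (a / r)) := by
      apply ih
      have h3 : (m + 1) * (a / r) = m * (a / r) + a / r := by ring
      rw [h3] at hc
      rcases le_total c (a / r) with h | h
      · rw [min_eq_left h]; simp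
      · rw [min_eq_right h]; omega
    have h3 := hS r a m 1 _ _ h2 h1
    have h4 : c - min c (a / r) + min c (a / r) = c := Nat.sub_add_cancel (min_le_left _ _)
    rw [h4] at h3
    exact h3

/-- `t` orbits of moved blocks -/
theorem model_moved_blocks (hS : LemModelSum) (hSh : LemModelShift) (hZ : LemModelZero)
    (r a : ℕ) (hr : 2 ≤ r) : ∀ t : ℕ, Model r a (t * r) (t * a) := by
  intro t
  induction t with
  | zero =>
    have h := hZ r a
    simpa using h
  | succ t ih =>
    have h := hS r a (t * r) r (t * a) a ih (hSh r a hr)
    have h1 : (t + 1) * r = t * r + r := by ring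
    have h2 : (t + 1) * a = t * a + a := by ring
    rw [h1, h2]
    exact h

theorem lemModel_of (hS : LemModelSum) (hSh : LemModelShift) (hO : LemModelOne)
    (hZ : LemModelZero) : LemModel := by
  intro r a b j t hr htb hta hj
  obtain ⟨b', rfl⟩ := Nat.exists_eq_add_of_le htb
  obtain ⟨j', rfl⟩ := Nat.exists_eq_add_of_le hta
  have hj' : j' ≤ b' * (a / r) := by
    have h1 : r * (a / r) + a % r = a := Nat.div_add_mod a r
    have h2 : (t * r + b') * (a / r) + t * (a % r) = t * (r * (a / r) + a % r) + b' * (a / r) := by
      ring
    rw [h2, h1] at hj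
    omega
  exact hS r a (t * r) b' (t * a) j' (model_moved_blocks hS hSh hZ r a hr.two_le t)
    (model_fixed_blocks hS hO hZ r a hr b' j' hj')

end Cfsg.Agent.Lib.Helper65.UP
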