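import Mathlib
import Cfsg.Agent.Lib.Helper73.UP.Defs

set_option autoImplicit false

/-! Project UP (S3575), package SUFF: transport of a model along a conjugation. -/

namespace Cfsg.Agent.Lib.Helper65.UP

open Cfsg.Agent.Lib.Helper73.UP Equiv

/-- cycle type of a permutation of prime order `r` whose support has `r * j` elements -/
theorem cycleType_of_prime_order {n r j : ℕ} (σ : Perm (Fin n)) (hr : r.Prime)
    (ho : orderOf σ = r) (hs : σ.support.card = r * j) :
    σ.cycleType = Multiset.replicate j r ∧ 1 ≤ j := by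
  obtain ⟨m, hm⟩ := Equiv.Perm.cycleType_prime_order (σ := σ) (by rw [ho]; exact hr)
  rw [ho] at hm
  have h1 := Equiv.Perm.sum_cycleType σ
  rw [hm, Multiset.sum_replicate, hs, smul_eq_mul] at h1
  have h2 : m + 1 = j := by
    have h3 : r * (m + 1) = r * j := by rw [← h1]; ring
    exact Nat.eq_of_mul_eq_mul_left hr.pos h3
  rw [hm, h2]
  exact ⟨rfl, by omega⟩

theorem lemSuff : LemSuff := by
  intro a b r j σ hr ho hs hM
  obtain ⟨X, Y, hX, hY, σ₀, π₀, f₀, hYb, hfib, hcomm, hσ₀, hmoved⟩ := hM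
  classical
  have hYft : Fintype Y := Fintype.ofFinite Y
  have hXft : Fintype X := Fintype.ofFinite X
  have hXcard : Nat.card X = a * b := by
    rw [← Nat.card_congr (Equiv.sigmaFiberEquiv f₀), Nat.card_sigma]
    simp only [hfib]
    rw [Finset.sum_const, Finset.card_univ, smul_eq_mul, ← Nat.card_eq_fintype_card, hYb,
      mul_comm]
  have he : Nonempty (X ≃ Fin (a * b)) := by
    have h1 : Fintype.card X = Fintype.card (Fin (a * b)) := by
      rw [Fintype.card_fin, ← Nat.card_eq_fintype_card, hXcard]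
    exact ⟨Fintype.equivOfCardEq h1⟩
  have hε : Nonempty (Y ≃ Fin b) := by
    have h1 : Fintype.card Y = Fintype.card (Fin b) := by
      rw [Fintype.card_fin, ← Nat.card_eq_fintype_card, hYb]
    exact ⟨Fintype.equivOfCardEq h1⟩
  obtain ⟨e⟩ := he
  obtain ⟨ε⟩ := hε
  obtain ⟨hσct, hj1⟩ := cycleType_of_prime_order σ hr ho hs
  have hs1app : ∀ i, e.permCongr σ₀ i = e (σ₀ (e.symm i)) := fun i => rfl
  have hs1pow : ∀ n : ℕ, ∀ i, ((e.permCongr σ₀) ^ n) i = e ((σ₀ ^ n) (e.symm i)) := by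
    intro n
    induction n with
    | zero => intro i; simp
    | succ n ih =>
      intro i
      rw [pow_succ, Perm.mul_apply, ih, hs1app, Equiv.symm_apply_apply, pow_succ, Perm.mul_apply]
  have hs1r : (e.permCongr σ₀) ^ r = 1 := by
    ext i
    rw [hs1pow, hσ₀]
    simp
  have hs1supp : (e.permCongr σ₀).support.card = r * j := by
    rw [← hmoved]
    have h1 : (e.permCongr σ₀).support.card
        = Fintype.card {i : Fin (a * b) // e.permCongr σ₀ i ≠ i} := by
      rw [Fintype.card_subtype]; rfl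
    rw [h1, ← Nat.card_eq_fintype_card]
    apply Nat.card_congr
    refine (Equiv.subtypeEquiv e ?_).symm
    intro x
    rw [hs1app, Equiv.symm_apply_apply]
    simp
  have hs1ne : e.permCongr σ₀ ≠ 1 := by
    intro h1
    rw [h1, Perm.support_one, Finset.card_empty] at hs1supp
    have := hr.pos
    have h2 : 0 < r * j := Nat.mul_pos hr.pos hj1
    omega
  have hrf : Fact r.Prime := ⟨hr⟩
  have hs1o : orderOf (e.permCongr σ₀) = r := orderOf_eq_prime hs1r hs1ne
  obtain ⟨hs1ct, -⟩ := cycleType_of_prime_order (e.permCongr σ₀) hr hs1o hs1supp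
  have hconj : IsConj (e.permCongr σ₀) σ := by
    rw [Equiv.Perm.isConj_iff_cycleType_eq, hs1ct, hσct]
  obtain ⟨g, hg⟩ := isConj_iff.mp hconj
  have hσapp : ∀ x, g⁻¹ (σ x) = e (σ₀ (e.symm (g⁻¹ x))) := by
    intro x
    rw [← hg]
    simp [Perm.mul_apply, hs1app]
  refine ⟨fun x => ε (f₀ (e.symm (g⁻¹ x))), ?_, ε.permCongr π₀, ?_⟩
  · intro i
    refine Eq.trans ?_ (hfib (ε.symm i))
    apply Nat.card_congr
    refine Equiv.subtypeEquiv ((g⁻¹ : Perm (Fin (a * b))).trans e.symm) ?_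
    intro x
    show ε (f₀ (e.symm (g⁻¹ x))) = i ↔ f₀ (e.symm (g⁻¹ x)) = ε.symm i
    rw [Equiv.eq_symm_apply]
  · intro x
    show ε (f₀ (e.symm (g⁻¹ (σ x)))) = ε (π₀ (ε.symm (ε (f₀ (e.symm (g⁻¹ x))))))
    rw [hσapp, Equiv.symm_apply_apply, Equiv.symm_apply_apply, hcomm]

end Cfsg.Agent.Lib.Helper65.UP
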